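import Cfsg.Agent.Lib.BGTypes.CNBasic
import Cfsg.Agent.Lib.BGTypes.CNMaximal
import Cfsg.Agent.Lib.Cores.FPF
import Cfsg.Agent.Lib.PGroups.Aut
import Cfsg.Agent.Lib.Frobenius.Basic
import Mathlib.GroupTheory.SpecificGroups.ZGroup

/-!
Groups acting fixed-point-freely: nontrivial centre, structure of nilpotent ones; Frobenius
decomposition of CN groups with a nontrivial normal Hall nilpotent subgroup.
-/

set_option autoImplicit false

namespace CfsgLib.BGTypes

open Cfsg

variable {G : Type*} [Group G] [Finite G]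

/-- A prime order element normalizing a subgroup of prime order in a group acting fixed-point-freely
centralizes it. -/
theorem commute_of_fpf_prime {V : Subgroup G} {E : Subgroup G} (hV : V ≠ ⊥)
    (hEV : E ≤ Subgroup.normalizer (V : Set G))
    (hfpf : ∀ a ∈ E, a ≠ 1 → V ⊓ Subgroup.centralizer ({a} : Set G) = ⊥) {u b : G} (hu : u ∈ E)
    (hb : b ∈ E) {r q : ℕ} (hr : r.Prime) (hq : q.Prime) (hur : orderOf u = r) (hbq : orderOf b = q)
    (hn : b ∈ Subgroup.normalizer (Subgroup.zpowers u : Set G)) : b * u = u * b := by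
  by_contra hne
  refine hV ?_
  have hK : IsMulCommutative (Subgroup.zpowers u) := inferInstance
  have : Group.IsSolvable (Subgroup.zpowers b) :=
    Group.isSolvable_of_comm fun x y => (IsMulCommutative.is_comm (M := Subgroup.zpowers b)).comm x y
  have hle : Subgroup.zpowers u ⊔ Subgroup.zpowers b ≤ E :=
    sup_le (Subgroup.zpowers_le.mpr hu) (Subgroup.zpowers_le.mpr hb)
  refine CfsgLib.Cores.eq_bot_of_frobenius_fpf (K := Subgroup.zpowers u) (D := Subgroup.zpowers b)
    ((Subgroup.zpowers_le.mpr hu).trans hEV) ((Subgroup.zpowers_le.mpr hb).trans hEV)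
    (Subgroup.zpowers_le.mpr hn) ?_ ?_ ?_ fun a ha => hfpf a (hle ha)
  · rw [Ne, Subgroup.zpowers_eq_bot]; exact ne_one_of_orderOf_prime hr hur
  · rw [Ne, Subgroup.zpowers_eq_bot]; exact ne_one_of_orderOf_prime hq hbq
  · intro d hd hd1
    rw [Subgroup.eq_bot_iff_forall]
    rintro w ⟨hw, hwd⟩
    by_contra hw1
    have : Fact r.Prime := ⟨hr⟩
    have : Fact q.Prime := ⟨hq⟩
    have hu' : u ∈ Subgroup.zpowers w := by
      have h1 : Subgroup.zpowers w = Subgroup.zpowers u := Subgroup.eq_of_le_of_card_ge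
        (Subgroup.zpowers_le.mpr hw) (by
          rw [Nat.card_zpowers, Nat.card_zpowers, hur]
          have h2 := orderOf_dvd_of_mem_zpowers hw
          rw [hur] at h2
          rcases (Nat.dvd_prime hr).mp h2 with h | h
          · exact absurd (orderOf_eq_one_iff.mp h) hw1
          · exact h.ge)
      exact h1 ▸ Subgroup.mem_zpowers u
    have hb' : b ∈ Subgroup.zpowers d := by
      have h1 : Subgroup.zpowers d = Subgroup.zpowers b := Subgroup.eq_of_le_of_card_ge
        (Subgroup.zpowers_le.mpr hd) (by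
          rw [Nat.card_zpowers, Nat.card_zpowers, hbq]
          have h2 := orderOf_dvd_of_mem_zpowers hd
          rw [hbq] at h2
          rcases (Nat.dvd_prime hq).mp h2 with h | h
          · exact absurd (orderOf_eq_one_iff.mp h) hd1
          · exact h.ge)
      exact h1 ▸ Subgroup.mem_zpowers b
    obtain ⟨i, rfl⟩ := Subgroup.mem_zpowers_iff.mp hu'
    obtain ⟨j, rfl⟩ := Subgroup.mem_zpowers_iff.mp hb'
    exact hne ((show Commute d w from
      (Subgroup.mem_centralizer_singleton_iff.mp hwd).symm).zpow_zpow j i).eq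

/-- All Sylow subgroups of odd order of a group acting fixed-point-freely are cyclic. -/
theorem isCyclic_sylow_of_fpf {E V : Subgroup G} (hV : V ≠ ⊥) (hEV : E ≤ Subgroup.normalizer (V : Set G))
    (hfpf : ∀ a ∈ E, a ≠ 1 → V ⊓ Subgroup.centralizer ({a} : Set G) = ⊥) {p : ℕ} [Fact p.Prime]
    (P : Sylow p E) :
    IsCyclic P ∨ (p = 2 ∧ ∃ m : ℕ, 1 ≤ m ∧ Nonempty (P ≃* QuaternionGroup (2 ^ m))) := by
  have hR : (P : Subgroup E).map E.subtype ≤ E := Subgroup.map_subtype_le _
  let e := (P : Subgroup E).equivMapOfInjective E.subtype E.subtype_injective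
  rcases CfsgLib.Cores.isCyclic_or_quaternion_of_fpf (P.2.map E.subtype) hV (hR.trans hEV)
    (fun a ha => hfpf a (hR ha)) with h | ⟨h2, m, hm, ⟨e'⟩⟩
  · exact Or.inl (e.isCyclic.mpr h)
  · exact Or.inr ⟨h2, m, hm, ⟨e.trans e'⟩⟩

/-- A nontrivial group acting fixed-point-freely has nontrivial centre. -/
theorem exists_central_of_fpf {E V : Subgroup G} (hE : E ≠ ⊥) (hV : V ≠ ⊥)
    (hEV : E ≤ Subgroup.normalizer (V : Set G))
    (hfpf : ∀ a ∈ E, a ≠ 1 → V ⊓ Subgroup.centralizer ({a} : Set G) = ⊥) :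
    ∃ z ∈ E, z ≠ 1 ∧ ∀ a ∈ E, a * z = z * a := by
  by_cases h2 : 2 ∣ Nat.card E
  · obtain ⟨⟨t, ht⟩, hto⟩ := exists_prime_orderOf_dvd_card' (G := E) 2 h2
    rw [Subgroup.orderOf_mk] at hto
    have ht1 := ne_one_of_orderOf_prime Nat.prime_two hto
    have ht2 : t * t = 1 := by rw [← pow_two, ← hto, pow_orderOf_eq_one]
    refine ⟨t, ht, ht1, fun a ha => ?_⟩
    have hsE : a * t * a⁻¹ ∈ E := mul_mem (mul_mem ha ht) (inv_mem ha)
    have hs1 : a * t * a⁻¹ ≠ 1 := fun h => ht1 (by
      rwa [mul_inv_eq_one, mul_eq_left] at h)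
    have hst : (a * t * a⁻¹) * t = 1 := by
      by_contra hne
      refine hV ?_
      rw [← hfpf _ (mul_mem hsE ht) hne, eq_comm, inf_eq_left]
      intro v hv
      refine Subgroup.mem_centralizer_singleton_iff.mpr ?_
      have e1 := CfsgLib.Cores.involution_inverts (hEV ht) ht2 (hfpf t ht ht1) hv
      have e2 := CfsgLib.Cores.involution_inverts (hEV hsE)
        (by rw [show a * t * a⁻¹ * (a * t * a⁻¹) = a * (t * t) * a⁻¹ by group, ht2, mul_one, mul_inv_cancel])
        (hfpf _ hsE hs1) (inv_mem hv)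
      rw [inv_inv] at e2
      refine (mul_inv_eq_iff_eq_mul.mp ?_).symm
      calc a * t * a⁻¹ * t * v * (a * t * a⁻¹ * t)⁻¹
          = a * t * a⁻¹ * (t * v * t⁻¹) * (a * t * a⁻¹)⁻¹ := by group
        _ = v := by rw [e1, e2]
    have h3 : a * t * a⁻¹ = t := mul_right_cancel (hst.trans ht2.symm)
    exact mul_inv_eq_iff_eq_mul.mp h3
  · have hZ : IsZGroup E := ⟨fun p hp P => by
      have : Fact p.Prime := ⟨hp⟩
      rcases isCyclic_sylow_of_fpf hV hEV hfpf P with h | ⟨rfl, -⟩
      · exact h
      · have hc : Nat.card P = 1 := by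
          obtain ⟨k, hk⟩ := IsPGroup.iff_card.mp P.2
          rcases Nat.eq_zero_or_pos k with rfl | hk0
          · simpa using hk
          · exact absurd ((dvd_pow_self 2 hk0.ne').trans (hk ▸ Subgroup.card_subgroup_dvd_card _)) h2
        have : Subsingleton P := (Nat.card_eq_one_iff_unique.mp hc).1
        infer_instance⟩
    let F := fittingSubgroup E
    have hFn : Group.IsNilpotent F := CfsgLib.Cores.isNilpotent_fittingSubgroup
    have hFc : IsCyclic F := inferInstance
    have hprime : ∀ b : E, ∀ q : ℕ, q.Prime → orderOf b = q → b ∈ F := by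
      intro b q hq hbq
      have : Fact q.Prime := ⟨hq⟩
      refine CfsgLib.Cores.centralizer_fittingSubgroup_le (G := E) ?_
      refine Subgroup.mem_centralizer_iff.mpr fun x hx => ?_
      have hx' : x ∈ ⨆ r : (Nat.card E).primeFactors, pCore (r : ℕ) E := by
        rwa [← CfsgLib.Cores.fittingSubgroup_eq_iSup_pCore]
      have hle : (⨆ r : (Nat.card E).primeFactors, pCore (r : ℕ) E) ≤
          Subgroup.centralizer ({b} : Set E) := by
        refine iSup_le fun r' => ?_
        obtain ⟨r, hr⟩ := r'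
        have hrp : r.Prime := Nat.prime_of_mem_primeFactors hr
        have : Fact r.Prime := ⟨hrp⟩
        have hr2 : r ≠ 2 := fun h => h2 (h ▸ Nat.dvd_of_mem_primeFactors hr)
        have hcyc : IsCyclic (pCore r E) := (CfsgLib.Cores.isPGroup_pCore r E).isCyclic_of_isZGroup
        by_cases hrq : r = q
        · subst hrq
          have hW : IsPGroup r (pCore r E ⊔ Subgroup.zpowers b : Subgroup E) :=
            (CfsgLib.Cores.isPGroup_pCore r E).to_sup_of_normal_left'
              (IsPGroup.of_card (n := 1) (by rw [Nat.card_zpowers, hbq, pow_one]))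
              (Subgroup.le_normalizer_of_normal.trans le_rfl)
          have := hW.isCyclic_of_isZGroup
          intro y hy
          let _ := IsCyclic.commGroup (α := (pCore r E ⊔ Subgroup.zpowers b : Subgroup E))
          refine Subgroup.mem_centralizer_singleton_iff.mpr ?_
          exact congrArg Subtype.val (mul_comm
            (⟨y, Subgroup.mem_sup_left hy⟩ : (pCore r E ⊔ Subgroup.zpowers b : Subgroup E))
            ⟨b, Subgroup.mem_sup_right (Subgroup.mem_zpowers b)⟩)
        · have hfix : MulAut.conjNormal (H := pCore r E) b = 1 := by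
            refine CfsgLib.PGroups.eq_one_of_fixed_omega hr2 (CfsgLib.Cores.isPGroup_pCore r E) _
              ?_ fun u hu => Subtype.ext ?_
            · exact Nat.Coprime.coprime_dvd_left (orderOf_map_dvd _ b)
                (by rw [hbq]; exact (Nat.coprime_primes hq hrp).mpr (Ne.symm hrq))
            · rw [MulAut.conjNormal_apply, mul_inv_eq_iff_eq_mul]
              by_cases hu1 : u = 1
              · subst hu1; simp
              have huo : orderOf (((u : E) : G)) = r := by
                rw [Subgroup.orderOf_coe, Subgroup.orderOf_coe]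
                exact orderOf_eq_prime hu hu1
              refine Subtype.ext (commute_of_fpf_prime hV hEV hfpf (u : E).2 b.2 hrp hq huo
                (by rw [Subgroup.orderOf_coe, hbq]) ?_)
              have hbu : (b * (u : E) * b⁻¹) ∈ Subgroup.zpowers (u : E) := by
                have h1 : Subgroup.zpowers (b * (u : E) * b⁻¹) = Subgroup.zpowers (u : E) := by
                  refine CfsgLib.BGAppendix.eq_of_card_eq_of_le_cyclic (pCore r E) _ _ hcyc
                    (Subgroup.zpowers_le.mpr ((Cfsg.pCore_normal r E).conj_mem _ u.2 b))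
                    (Subgroup.zpowers_le.mpr u.2) ?_
                  rw [Nat.card_zpowers, Nat.card_zpowers, ← MulAut.conj_apply, MulEquiv.orderOf_eq]
                exact h1 ▸ Subgroup.mem_zpowers _
              refine Subgroup.mem_normalizer_fintype fun y hy => ?_
              obtain ⟨k, rfl⟩ := Subgroup.mem_zpowers_iff.mp hy
              obtain ⟨j, hj⟩ := Subgroup.mem_zpowers_iff.mp hbu
              refine Subgroup.mem_zpowers_iff.mpr ⟨j * k, ?_⟩
              rw [zpow_mul, ← conj_zpow]
              congr 1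
              exact congrArg Subtype.val hj
          intro y hy
          refine Subgroup.mem_centralizer_singleton_iff.mpr ?_
          have h1 := congrArg Subtype.val (DFunLike.congr_fun hfix ⟨y, hy⟩)
          rw [MulAut.conjNormal_apply, MulAut.one_apply] at h1
          exact (mul_inv_eq_iff_eq_mul.mp h1).symm
      exact Subgroup.mem_centralizer_singleton_iff.mp (hle hx')
    -- the smallest prime
    have hcard : Nat.card E ≠ 1 := fun h => hE (Subgroup.eq_bot_of_card_eq E h)
    let q := (Nat.card E).minFac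
    have hq : q.Prime := Nat.minFac_prime hcard
    have : Fact q.Prime := ⟨hq⟩
    obtain ⟨b, hb⟩ := exists_prime_orderOf_dvd_card' (G := E) q (Nat.minFac_dvd _)
    have hbF := hprime b q hq hb
    have hn : (Subgroup.zpowers b).Normal := ⟨fun x hx g => by
      obtain ⟨k, rfl⟩ := Subgroup.mem_zpowers_iff.mp hx
      rw [← conj_zpow]
      refine Subgroup.zpow_mem _ ?_ k
      have h1 : Subgroup.zpowers (g * b * g⁻¹) = Subgroup.zpowers b := by
        refine CfsgLib.BGAppendix.eq_of_card_eq_of_le_cyclic F _ _ hFc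
          (Subgroup.zpowers_le.mpr ((inferInstance : F.Normal).conj_mem b hbF g))
          (Subgroup.zpowers_le.mpr hbF) ?_
        rw [Nat.card_zpowers, Nat.card_zpowers, ← MulAut.conj_apply, MulEquiv.orderOf_eq]
      exact h1 ▸ Subgroup.mem_zpowers _⟩
    refine ⟨b, b.2, fun h => ne_one_of_orderOf_prime hq hb (Subtype.ext h), fun a ha => ?_⟩
    have h1 : MulAut.conjNormal (H := Subgroup.zpowers b) (⟨a, ha⟩ : E) = 1 := by
      rw [← orderOf_eq_one_iff]
      have d1 : orderOf (MulAut.conjNormal (H := Subgroup.zpowers b) (⟨a, ha⟩ : E)) ∣ Nat.card E :=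
        (orderOf_map_dvd _ _).trans (orderOf_dvd_natCard _)
      have d2 : orderOf (MulAut.conjNormal (H := Subgroup.zpowers b) (⟨a, ha⟩ : E)) ∣ q - 1 := by
        have := orderOf_dvd_natCard (MulAut.conjNormal (H := Subgroup.zpowers b) (⟨a, ha⟩ : E))
        rwa [IsCyclic.card_mulAut, Nat.card_zpowers, hb, Nat.totient_prime hq] at this
      by_contra hne
      obtain ⟨s, hs, hsd⟩ := Nat.exists_prime_and_dvd hne
      have h3 : q ≤ s := Nat.minFac_le_of_dvd hs.two_le (hsd.trans d1)
      have h4 : s ≤ q - 1 := Nat.le_of_dvd (Nat.sub_pos_of_lt hq.one_lt) (hsd.trans d2)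
      exact absurd (h3.trans h4) (not_le.mpr (Nat.sub_lt hq.pos Nat.one_pos))
    have h2' := congrArg Subtype.val (DFunLike.congr_fun h1 ⟨b, Subgroup.mem_zpowers b⟩)
    rw [MulAut.conjNormal_apply, MulAut.one_apply] at h2'
    exact congrArg Subtype.val (mul_inv_eq_iff_eq_mul.mp h2')

/-- A nilpotent group acting fixed-point-freely is cyclic or cyclic times generalised quaternion. -/
theorem isCyclic_or_quaternion_nilpotent {E V : Subgroup G} (hV : V ≠ ⊥)
    (hEV : E ≤ Subgroup.normalizer (V : Set G)) (hEn : Group.IsNilpotent E)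
    (hfpf : ∀ a ∈ E, a ≠ 1 → V ⊓ Subgroup.centralizer ({a} : Set G) = ⊥) :
    IsCyclic E ∨ ∃ C Q : Subgroup G, C ⊔ Q = E ∧ (∀ a ∈ C, ∀ b ∈ Q, a * b = b * a) ∧ IsCyclic C ∧
      Odd (Nat.card C) ∧ ∃ n : ℕ, Nonempty (↥Q ≃* QuaternionGroup (2 ^ n)) := by
  have h1 : Group.IsNilpotent E ↔ ∀ (p : ℕ) (_hp : Fact p.Prime) (S : Sylow p E), (S : Subgroup E).Normal :=
    (Group.isNilpotent_of_finite_tfae (G := E)).out 0 3
  let S : Sylow 2 E := default
  by_cases hS : IsCyclic S
  · left
    have : IsZGroup E := ⟨fun p hp P => by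
      have : Fact p.Prime := ⟨hp⟩
      rcases isCyclic_sylow_of_fpf hV hEV hfpf P with h | ⟨rfl, -⟩
      · exact h
      · exact (P.equiv S).isCyclic.mpr hS⟩
    infer_instance
  · right
    obtain ⟨-, m, -, ⟨e⟩⟩ := (isCyclic_sylow_of_fpf hV hEV hfpf S).resolve_left hS
    have := h1.mp hEn 2 inferInstance S
    let C₀ := pPrimeCore 2 E
    have hCodd : Odd (Nat.card C₀) :=
      Nat.coprime_two_right.mp (CfsgLib.Cores.card_pPrimeCore_coprime (G := E) 2)
    have hCn : Group.IsNilpotent C₀ := Subgroup.isNilpotent _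
    have : IsZGroup C₀ := ⟨fun p hp P => by
      have : Fact p.Prime := ⟨hp⟩
      have hcyc : IsCyclic ((P : Subgroup C₀).map C₀.subtype) := by
        obtain ⟨Q, hQ⟩ := (P.2.map C₀.subtype).exists_le_sylow
        rcases isCyclic_sylow_of_fpf hV hEV hfpf Q with h | ⟨rfl, -⟩
        · exact Subgroup.isCyclic_of_le hQ
        · have hc : Nat.card ((P : Subgroup C₀).map C₀.subtype) = 1 := by
            obtain ⟨k, hk⟩ := IsPGroup.iff_card.mp (P.2.map C₀.subtype)
            rcases Nat.eq_zero_or_pos k with rfl | hk0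
            · simpa using hk
            · have hd : 2 ∣ Nat.card C₀ := (dvd_pow_self 2 hk0.ne').trans
                (hk ▸ Subgroup.card_dvd_of_le (Subgroup.map_subtype_le _))
              exact absurd hCodd (Nat.not_odd_iff_even.mpr (even_iff_two_dvd.mpr hd))
          have : Subsingleton ((P : Subgroup C₀).map C₀.subtype) := (Nat.card_eq_one_iff_unique.mp hc).1
          infer_instance
      exact ((P : Subgroup C₀).equivMapOfInjective C₀.subtype C₀.subtype_injective).isCyclic.mpr hcyc⟩
    have hC : IsCyclic C₀ := inferInstance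
    refine ⟨C₀.map E.subtype, (S : Subgroup E).map E.subtype, ?_, ?_, ?_, ?_, m, ⟨?_⟩⟩
    · rw [← Subgroup.map_sup]
      have hsup : C₀ ⊔ (S : Subgroup E) = ⊤ := by
        refine top_le_iff.mp (le_of_forall_primePow fun g _ q i hq hgi => ?_)
        have : Fact q.Prime := ⟨hq⟩
        have hz : IsPGroup q (Subgroup.zpowers g) := IsPGroup.of_card (n := i) (by rw [Nat.card_zpowers, hgi])
        obtain ⟨T, hT⟩ := hz.exists_le_sylow
        have := h1.mp hEn q inferInstance T
        by_cases hq2 : q = 2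
        · subst hq2
          refine Subgroup.mem_sup_right ?_
          rw [← CfsgLib.Cores.pCore_eq_sylow_of_normal S, CfsgLib.Cores.pCore_eq_sylow_of_normal T]
          exact hT (Subgroup.mem_zpowers g)
        · refine Subgroup.mem_sup_left (CfsgLib.Cores.le_pPrimeCore ?_ (hT (Subgroup.mem_zpowers g)))
          obtain ⟨k, hk⟩ := IsPGroup.iff_card.mp T.2
          rw [hk]
          exact ((Nat.coprime_primes hq Nat.prime_two).mpr hq2).pow_left k
      rw [hsup, ← MonoidHom.range_eq_map, Subgroup.range_subtype]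
    · rintro _ ⟨a, ha, rfl⟩ _ ⟨b, hb, rfl⟩
      rw [← map_mul, ← map_mul]
      congr 1
      have hb' : b ∈ pCore 2 E := by rwa [CfsgLib.Cores.pCore_eq_sylow_of_normal S]
      exact (CfsgLib.Cores.commute_pCore_pPrimeCore hb' ha).symm.eq
    · exact (C₀.equivMapOfInjective E.subtype E.subtype_injective).isCyclic.mp hC
    · rwa [Subgroup.card_map_of_injective E.subtype_injective]
    · exact ((S : Subgroup E).equivMapOfInjective E.subtype E.subtype_injective).symm.trans e

/-- In a CN group, a complement of a nilpotent normal Hall subgroup none of whose Sylow subgroups is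
normal acts fixed-point-freely. -/
theorem fpf_of_cn_complement (hCN : IsCNGroup G) {H E : Subgroup G} [H.Normal]
    (hH : Group.IsNilpotent H) (hc : Subgroup.IsComplement' H E)
    (hcop : (Nat.card H).Coprime (Nat.card E))
    (hno : ∀ (q : ℕ) [Fact q.Prime], q ∣ Nat.card E → ∀ Q : Sylow q G, ¬ (Q : Subgroup G).Normal) :
    ∀ e ∈ E, e ≠ 1 → H ⊓ Subgroup.centralizer ({e} : Set G) = ⊥ := by
  intro e he he1
  rw [Subgroup.eq_bot_iff_forall]
  rintro h ⟨hh, hhe⟩
  by_contra hh1
  let D := E ⊓ Subgroup.centralizer (H : Set G)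
  have heD : e ∈ D := ⟨he, Subgroup.mem_centralizer_iff.mpr fun a ha =>
    (commute_nilpotent_of_commute hCN hH hh hh1
      (hcop.symm.coprime_dvd_left (Subgroup.orderOf_dvd_natCard E he))
      (Subgroup.mem_centralizer_singleton_iff.mp hhe).symm ha).symm⟩
  have hDn : Group.IsNilpotent D := CfsgLib.Cores.isNilpotent_of_le (hCN h hh1) fun d hd =>
    Subgroup.mem_centralizer_singleton_iff.mpr (Subgroup.mem_centralizer_iff.mp hd.2 h hh).symm
  have hDnorm : D.Normal := by
    rw [← Subgroup.normalizer_eq_top_iff, eq_top_iff, ← hc.sup_eq_top]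
    refine sup_le ?_ ?_
    · refine le_trans ?_ (Subgroup.centralizer_le_normalizer _)
      intro a ha
      exact Subgroup.mem_centralizer_iff.mpr fun d hd => (Subgroup.mem_centralizer_iff.mp hd.2 a ha).symm
    · exact le_trans (le_inf Subgroup.le_normalizer Subgroup.le_normalizer_of_normal)
        Subgroup.inf_normalizer_le_normalizer_inf
  obtain ⟨q, hq, hqd⟩ := Nat.exists_prime_and_dvd (n := Nat.card D) fun h1 =>
    he1 ((Subgroup.eq_bot_iff_forall D).mp (Subgroup.eq_bot_of_card_eq D h1) e heD)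
  have : Fact q.Prime := ⟨hq⟩
  have hqE : q ∣ Nat.card E := hqd.trans (Subgroup.card_dvd_of_le inf_le_left)
  obtain ⟨⟨d, hdD⟩, hd⟩ := exists_prime_orderOf_dvd_card' (G := D) q hqd
  rw [Subgroup.orderOf_mk] at hd
  obtain ⟨Q₀, hQ₀⟩ := (IsPGroup.of_card (p := q) (n := 1) (G := Subgroup.zpowers (⟨d, hdD.1⟩ : E))
    (by rw [Nat.card_zpowers, Subgroup.orderOf_mk, hd, pow_one])).exists_le_sylow
  let Q := (Q₀ : Subgroup E).map E.subtype
  have hQp : IsPGroup q Q := Q₀.2.map _
  have hdQ : d ∈ Q := ⟨⟨d, hdD.1⟩, hQ₀ (Subgroup.mem_zpowers _), rfl⟩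
  have := hQp.isNilpotent
  have hb : D.subgroupOf Q ≠ ⊥ := fun h => ne_one_of_orderOf_prime hq hd
    (congrArg Subtype.val ((Subgroup.eq_bot_iff_forall _).mp h ⟨d, hdQ⟩ hdD))
  obtain ⟨z, hz, hz1⟩ := (Subgroup.bot_or_exists_ne_one _).resolve_left
    (CfsgLib.PSolvable.inf_center_ne_bot hb)
  have hz1' : (z : G) ≠ 1 := fun h => hz1 (Subtype.ext h)
  have hQD : Q ≤ D := fun y hy => by
    refine ⟨Subgroup.map_subtype_le _ hy, Subgroup.mem_centralizer_iff.mpr fun a ha => ?_⟩
    refine commute_of_mem_nilpotent (hCN _ hz1')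
      (Subgroup.mem_centralizer_singleton_iff.mpr (Subgroup.mem_centralizer_iff.mp hz.1.2 a ha))
      (Subgroup.mem_centralizer_singleton_iff.mpr
        (congrArg Subtype.val (Subgroup.mem_center_iff.mp hz.2 ⟨y, hy⟩))) ?_
    exact (hcop.coprime_dvd_left (Subgroup.orderOf_dvd_natCard H ha)).coprime_dvd_right
      (Subgroup.orderOf_dvd_natCard E (Subgroup.map_subtype_le _ hy))
  have hidx : ¬ q ∣ Q.index := by
    rw [Subgroup.index_map_of_injective _ E.subtype_injective, Subgroup.range_subtype,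
      hc.index_eq_card]
    intro h
    rcases hq.dvd_mul.mp h with h | h
    · exact Q₀.not_dvd_index h
    · exact hq.not_dvd_one (hcop ▸ Nat.dvd_gcd h hqE)
  let QG : Sylow q G := hQp.toSylow hidx
  refine hno q hqE QG ?_
  have hle : (pCore q D).map D.subtype = Q := by
    refine le_antisymm ?_ fun y hy => ?_
    · have : ((pCore q D).map D.subtype).Normal := CfsgLib.Cores.normal_map_subtype D _
      exact (CfsgLib.Cores.le_pCore ((CfsgLib.Cores.isPGroup_pCore q D).map _)).trans
        ((CfsgLib.Cores.pCore_le_sylow QG).trans (IsPGroup.toSylow_coe hQp hidx).le)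
    · obtain ⟨i, hi⟩ := IsPGroup.iff_orderOf.mp hQp ⟨y, hy⟩
      rw [Subgroup.orderOf_mk] at hi
      exact mem_map_pCore_of_primePow hDn (hQD hy) hi
  rw [IsPGroup.toSylow_coe, ← hle]
  exact CfsgLib.Cores.normal_map_subtype D _

/-- In a CN group a group acting fixed-point-freely is nilpotent. -/
theorem isNilpotent_of_cn_fpf (hCN : IsCNGroup G) {E V : Subgroup G} (hV : V ≠ ⊥)
    (hEV : E ≤ Subgroup.normalizer (V : Set G))
    (hfpf : ∀ a ∈ E, a ≠ 1 → V ⊓ Subgroup.centralizer ({a} : Set G) = ⊥) : Group.IsNilpotent E := by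
  by_cases hE : E = ⊥
  · subst hE; infer_instance
  obtain ⟨z, hz, hz1, hzc⟩ := exists_central_of_fpf hE hV hEV hfpf
  exact CfsgLib.Cores.isNilpotent_of_le (hCN z hz1) fun a ha =>
    Subgroup.mem_centralizer_singleton_iff.mpr (hzc a ha)

/-- CN groups with a nontrivial normal Sylow subgroup that are not nilpotent are Frobenius groups with
kernel their largest normal nilpotent Hall subgroup. -/
theorem cn_frobenius_of_normal_sylow (hCN : IsCNGroup G) (hnn : ¬ Group.IsNilpotent G) {p : ℕ}
    [Fact p.Prime] (P : Sylow p G) (hP1 : (P : Subgroup G) ≠ ⊥) (hPn : (P : Subgroup G).Normal) :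
    fittingHall G ≠ ⊥ ∧ fittingHall G ≠ ⊤ ∧
      ∃ E : Subgroup G, Subgroup.IsComplement' (fittingHall G) E ∧ IsFrobeniusComplement E ∧
        Group.IsNilpotent E ∧ E ≠ ⊥ ∧
        (∀ e ∈ E, e ≠ 1 → fittingHall G ⊓ Subgroup.centralizer ({e} : Set G) = ⊥) ∧
        Group.IsNilpotent (G ⧸ fittingHall G) := by
  obtain ⟨hHnil, hcop⟩ := CfsgLib.BGAppendix.fittingHall_spec G
  have hPH : (P : Subgroup G) ≤ fittingHall G :=
    CfsgLib.BGAppendix.le_fittingHall hPn P.2.isNilpotent P.card_coprime_index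
  have hH1 : fittingHall G ≠ ⊥ := fun h => hP1 (le_bot_iff.mp (hPH.trans h.le))
  have hHtop : fittingHall G ≠ ⊤ := fun h => hnn <| by
    rw [h] at hHnil
    have := hHnil
    exact Group.nilpotent_of_mulEquiv Subgroup.topEquiv
  obtain ⟨E, hc⟩ := Subgroup.exists_right_complement'_of_coprime (N := fittingHall G) hcop
  have hcard : (fittingHall G).index = Nat.card E := hc.symm.index_eq_card
  rw [hcard] at hcop
  have hE1 : E ≠ ⊥ := fun h => hHtop (by
    have := hc.sup_eq_top
    rwa [h, sup_bot_eq] at this)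
  have hfpf := fpf_of_cn_complement hCN hHnil hc hcop fun q _ hq Q hQn => by
    have hle := CfsgLib.BGAppendix.le_fittingHall hQn Q.2.isNilpotent Q.card_coprime_index
    have hqG : q ∣ Nat.card G := hq.trans (Subgroup.card_subgroup_dvd_card E)
    exact (Fact.out : q.Prime).not_dvd_one
      (hcop ▸ Nat.dvd_gcd ((Q.dvd_card_of_dvd_card hqG).trans (Subgroup.card_dvd_of_le hle)) hq)
  have hEn := isNilpotent_of_cn_fpf hCN hH1
    (Subgroup.le_normalizer_of_normal (H := fittingHall G) (K := E)) hfpf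
  refine ⟨hH1, hHtop, E, hc, ?_, hEn, hE1, hfpf, ?_⟩
  · exact CfsgLib.Frobenius.isFrobeniusComplement_of_fpf _ _ hc.disjoint.eq_bot hc.sup_eq_top hH1 hE1
      ((CfsgLib.Frobenius.centralizer_inf_iff _ _).mp hfpf)
  · have := hEn
    refine Group.nilpotent_of_surjective ((QuotientGroup.mk' (fittingHall G)).comp E.subtype) ?_
    intro y
    obtain ⟨g, rfl⟩ := QuotientGroup.mk'_surjective _ y
    obtain ⟨k, hk, e, he, rfl⟩ := CfsgLib.Frobenius.exists_eq_mul_of_sup_eq_top _ E hc.sup_eq_top g
    refine ⟨⟨e, he⟩, ?_⟩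
    rw [map_mul, show QuotientGroup.mk' (fittingHall G) k = 1 from (QuotientGroup.eq_one_iff k).mpr hk,
      one_mul]
    rfl

end CfsgLib.BGTypes
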