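import Cfsg.Prelude.Def_OddOrderLocal
import Cfsg.Agent.Lib.BGTypes.CNComplement
import Cfsg.Agent.Lib.BGTypes.CNQuotient

/-!
Solvable CN groups: nilpotent, Frobenius, or three-step groups.
-/

set_option autoImplicit false

namespace CfsgLib.BGTypes

open Cfsg

variable {G : Type*} [Group G] [Finite G]

/-- A normal subgroup of a quotient by a normal `p`-subgroup, of order prime to `p`, lifts. -/
theorem exists_lift_coprime {p : ℕ} [hp : Fact p.Prime] (F : Subgroup G) [F.Normal]
    (hF : IsPGroup p F) (K : Subgroup (G ⧸ F)) (hK : (Nat.card K).Coprime p) :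
    ∃ B : Subgroup G, B ⊓ F = ⊥ ∧ F ⊔ B = K.comap (QuotientGroup.mk' F) ∧
      B.map (QuotientGroup.mk' F) = K ∧ Nat.card B = Nat.card K := by
  set f := QuotientGroup.mk' F with hf
  let M := K.comap f
  have hFM : F ≤ M := fun x hx => by
    show f x ∈ K
    rw [show f x = 1 from (QuotientGroup.eq_one_iff x).mpr hx]
    exact one_mem K
  have hcard : Nat.card M = Nat.card F * Nat.card K := CfsgLib.Cores.card_comap_mk' F K
  have hcF : Nat.card (F.subgroupOf M) = Nat.card F :=
    Nat.card_congr (Subgroup.subgroupOfEquivOfLe hFM).toEquiv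
  have hidx : (F.subgroupOf M).index = Nat.card K := by
    have h := Subgroup.card_mul_index (F.subgroupOf M)
    rw [hcF, hcard] at h
    exact Nat.eq_of_mul_eq_mul_left Nat.card_pos h
  obtain ⟨a, ha⟩ := IsPGroup.iff_card.mp hF
  obtain ⟨B₀, hB₀⟩ := Subgroup.exists_right_complement'_of_coprime (N := F.subgroupOf M)
    (by rw [hcF, hidx, ha]; exact hK.symm.pow_left a)
  let B := B₀.map M.subtype
  have hBc : Nat.card B = Nat.card K := by
    rw [Subgroup.card_map_of_injective M.subtype_injective, ← hB₀.symm.index_eq_card, hidx]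
  have hinf : B ⊓ F = ⊥ := by
    rw [Subgroup.eq_bot_iff_forall]
    rintro _ ⟨⟨b, hb, rfl⟩, hbF⟩
    exact congrArg Subtype.val (Subgroup.disjoint_def.mp hB₀.disjoint
      (show b ∈ F.subgroupOf M from hbF) hb)
  have hsup : F ⊔ B = M := by
    refine le_antisymm (sup_le hFM (Subgroup.map_subtype_le _)) ?_
    have h := congrArg (Subgroup.map M.subtype) hB₀.sup_eq_top
    rw [Subgroup.map_sup, Subgroup.map_subgroupOf_eq_of_le hFM, ← MonoidHom.range_eq_map,
      Subgroup.range_subtype] at h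
    exact h.ge
  refine ⟨B, hinf, hsup, ?_, hBc⟩
  have h := congrArg (Subgroup.map f) hsup
  rw [Subgroup.map_sup, QuotientGroup.map_mk'_self, bot_sup_eq,
    Subgroup.map_comap_eq_self_of_surjective (QuotientGroup.mk'_surjective F)] at h
  exact h

/-- A Sylow subgroup inside a normal nilpotent subgroup is normal. -/
theorem normal_of_le_nilpotent {p : ℕ} [hp : Fact p.Prime] (P : Sylow p G) {N : Subgroup G} [N.Normal]
    (hN : Group.IsNilpotent N) (hle : (P : Subgroup G) ≤ N) : (P : Subgroup G).Normal := by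
  have heq : (P : Subgroup G) = (pCore p N).map N.subtype := by
    refine le_antisymm (fun y hy => ?_) ?_
    · obtain ⟨i, hi⟩ := IsPGroup.iff_orderOf.mp P.2 ⟨y, hy⟩
      rw [Subgroup.orderOf_mk] at hi
      exact mem_map_pCore_of_primePow hN (hle hy) hi
    · have : ((pCore p N).map N.subtype).Normal := CfsgLib.Cores.normal_map_subtype N _
      exact (CfsgLib.Cores.le_pCore ((CfsgLib.Cores.isPGroup_pCore p N).map _)).trans
        (CfsgLib.Cores.pCore_le_sylow P)
  rw [heq]
  exact CfsgLib.Cores.normal_map_subtype N _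

/-- A solvable CN group without nontrivial normal Sylow subgroups has a `p`-group as Fitting
subgroup. -/
theorem fittingSubgroup_eq_pCore_of_cn [Group.IsSolvable G] [Nontrivial G] (hCN : IsCNGroup G)
    (hno : ∀ (q : ℕ) [Fact q.Prime] (Q : Sylow q G), (Q : Subgroup G) ≠ ⊥ → ¬ (Q : Subgroup G).Normal) :
    ∃ (p : ℕ) (_ : Fact p.Prime), fittingSubgroup G = pCore p G ∧ pCore p G ≠ ⊥ := by
  let F := fittingSubgroup G
  have hFnil : Group.IsNilpotent F := CfsgLib.Cores.isNilpotent_fittingSubgroup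
  have hF1 : F ≠ ⊥ := CfsgLib.Cores.fittingSubgroup_ne_bot
  obtain ⟨p, hp, hpF⟩ := Nat.exists_prime_and_dvd (fun h => hF1 (Subgroup.eq_bot_of_card_eq F h))
  have : Fact p.Prime := ⟨hp⟩
  have hcore : ∀ r : ℕ, r.Prime → r ∣ Nat.card F → ∃ w ∈ pCore r G, w ≠ 1 := by
    intro r hr hrF
    have : Fact r.Prime := ⟨hr⟩
    obtain ⟨z, hz, hzr, -⟩ := exists_central_orderOf hFnil hr hrF
    have hn : ((pCore r F).map F.subtype).Normal := CfsgLib.Cores.normal_map_subtype F _
    exact ⟨z, CfsgLib.Cores.le_pCore ((CfsgLib.Cores.isPGroup_pCore r F).map F.subtype)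
      (mem_map_pCore_of_primePow hFnil hz (i := 1) (by rw [pow_one, hzr])), ne_one_of_orderOf_prime hr hzr⟩
  obtain ⟨v, hv, hv1⟩ := hcore p hp hpF
  have hpne : pCore p G ≠ ⊥ := fun h => hv1 ((Subgroup.eq_bot_iff_forall _).mp h v hv)
  refine ⟨p, ⟨hp⟩, le_antisymm ?_ (CfsgLib.Cores.pCore_le_fittingSubgroup p), hpne⟩
  rw [CfsgLib.Cores.fittingSubgroup_eq_iSup_pCore]
  refine iSup_le fun r' => ?_
  obtain ⟨r, hr⟩ := r'
  have hrp : r.Prime := Nat.prime_of_mem_primeFactors hr
  have : Fact r.Prime := ⟨hrp⟩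
  rcases eq_or_ne r p with rfl | hne
  · exact le_rfl
  intro w hw
  by_contra hwp
  have hw1 : w ≠ 1 := fun h => hwp (h ▸ one_mem _)
  -- a Sylow `p`-subgroup centralizes `O_r(G)`
  let P : Sylow p G := default
  have hb : (pCore p G).subgroupOf P ≠ ⊥ := fun h => hpne (by
    rw [← Subgroup.map_subgroupOf_eq_of_le (CfsgLib.Cores.pCore_le_sylow P), h, Subgroup.map_bot])
  have := P.2.isNilpotent
  obtain ⟨z, hz, hz1⟩ := (Subgroup.bot_or_exists_ne_one _).resolve_left
    (CfsgLib.PSolvable.inf_center_ne_bot hb)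
  have hPC : (P : Subgroup G) ≤ Subgroup.centralizer (pCore r G : Set G) := fun y hy => by
    refine Subgroup.mem_centralizer_iff.mpr fun o ho => ?_
    refine commute_of_mem_nilpotent (hCN (z : G) fun h => hz1 (Subtype.ext h))
      (Subgroup.mem_centralizer_singleton_iff.mpr
        (CfsgLib.Cores.commute_pCore_of_ne hne ho hz.1).eq)
      (Subgroup.mem_centralizer_singleton_iff.mpr
        (congrArg Subtype.val (Subgroup.mem_center_iff.mp hz.2 ⟨y, hy⟩))) ?_
    obtain ⟨i, hi⟩ := IsPGroup.iff_orderOf.mp (CfsgLib.Cores.isPGroup_pCore r G) ⟨o, ho⟩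
    obtain ⟨j, hj⟩ := IsPGroup.iff_orderOf.mp P.2 ⟨y, hy⟩
    rw [Subgroup.orderOf_mk] at hi hj
    rw [hi, hj]
    exact ((Nat.coprime_primes hrp hp).mpr hne).pow _ _
  have hCn : Group.IsNilpotent (Subgroup.centralizer (pCore r G : Set G)) :=
    CfsgLib.Cores.isNilpotent_of_le (hCN w hw1) fun c hc =>
      Subgroup.mem_centralizer_singleton_iff.mpr (Subgroup.mem_centralizer_iff.mp hc w hw).symm
  exact hno p P (P.ne_bot_of_dvd_card (hpF.trans (Subgroup.card_subgroup_dvd_card F)))
    (normal_of_le_nilpotent P hCn hPC)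

/-- Solvable CN groups with Fitting subgroup `O_p` and no normal Sylow `p`-subgroup are three-step
groups. -/
theorem isThreeStepGroup_of_cn [Group.IsSolvable G] (hCN : IsCNGroup G) {p : ℕ} [hp : Fact p.Prime]
    (hFit : fittingSubgroup G = pCore p G) (hne : pCore p G ≠ ⊥)
    (hno : ∀ P : Sylow p G, ¬ (P : Subgroup G).Normal) : IsThreeStepGroup p G := by
  let F := pCore p G
  have hFp : IsPGroup p F := CfsgLib.Cores.isPGroup_pCore p G
  obtain ⟨a, ha⟩ := IsPGroup.iff_card.mp hFp
  have hFn : ∀ g : G, g ∈ Subgroup.normalizer (F : Set G) := fun g =>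
    Subgroup.le_normalizer_of_normal (Subgroup.mem_top g)
  have hFnil : Group.IsNilpotent F := hFp.isNilpotent
  have hCF : Subgroup.centralizer (F : Set G) ≤ F := by
    have h := CfsgLib.Cores.centralizer_fittingSubgroup_le (G := G)
    rwa [hFit] at h
  have hfpf : ∀ e : G, (orderOf e).Coprime p → e ≠ 1 → F ⊓ Subgroup.centralizer ({e} : Set G) = ⊥ := by
    intro e he he1
    rw [Subgroup.eq_bot_iff_forall]
    rintro h ⟨hh, hhe⟩
    by_contra hh1
    have heF : e ∈ F := hCF (Subgroup.mem_centralizer_iff.mpr fun c hc =>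
      (commute_nilpotent_of_commute hCN hFnil hh hh1 (by rw [ha]; exact he.pow_right a)
        (Subgroup.mem_centralizer_singleton_iff.mp hhe).symm hc).symm)
    obtain ⟨k, hk⟩ := IsPGroup.iff_orderOf.mp hFp ⟨e, heF⟩
    rw [Subgroup.orderOf_mk] at hk
    rw [hk] at he
    rcases Nat.eq_zero_or_pos k with rfl | hk0
    · exact he1 (orderOf_eq_one_iff.mp (by rw [hk, pow_zero]))
    · exact hp.out.ne_one (Nat.eq_one_of_dvd_coprimes he (dvd_pow_self p hk0.ne') dvd_rfl)
  -- the quotient
  set f := QuotientGroup.mk' F with hf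
  have hfs : Function.Surjective f := QuotientGroup.mk'_surjective F
  have hQCN : IsCNGroup (G ⧸ F) := by
    have : Group.IsSolvable F := inferInstance
    exact isCNGroup_quotient hCN F
  have hQsol : Group.IsSolvable (G ⧸ F) := Group.isSolvable_of_surjective hfs
  let K := fittingSubgroup (G ⧸ F)
  have hKnil : Group.IsNilpotent K := CfsgLib.Cores.isNilpotent_fittingSubgroup
  have hCK : Subgroup.centralizer (K : Set (G ⧸ F)) ≤ K := CfsgLib.Cores.centralizer_fittingSubgroup_le
  have hKp : (Nat.card K).Coprime p := by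
    refine (hp.out.coprime_iff_not_dvd.mpr fun hd => ?_).symm
    obtain ⟨z, hz, hzp, -⟩ := exists_central_orderOf hKnil hp.out hd
    have hn : ((pCore p K).map K.subtype).Normal := CfsgLib.Cores.normal_map_subtype K _
    have h1 := CfsgLib.Cores.le_pCore ((CfsgLib.Cores.isPGroup_pCore p K).map K.subtype)
      (mem_map_pCore_of_primePow hKnil hz (i := 1) (by rw [pow_one, hzp]))
    rw [CfsgLib.Cores.pCore_quotient_pCore, Subgroup.mem_bot] at h1
    exact ne_one_of_orderOf_prime hp.out hzp h1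
  -- there is a nontrivial `p`-element in the quotient
  obtain ⟨x₁, hx₁⟩ : ∃ x : G ⧸ F, orderOf x = p := by
    let P : Sylow p G := default
    have hlt : F < (P : Subgroup G) := lt_of_le_of_ne (CfsgLib.Cores.pCore_le_sylow P)
      fun h => hno P (h ▸ (inferInstance : F.Normal))
    refine exists_prime_orderOf_dvd_card' p ?_
    rw [← Subgroup.index_eq_card]
    have h1 : F.relIndex (P : Subgroup G) ≠ 1 := fun h => hlt.not_ge (Subgroup.relIndex_eq_one.mp h)
    obtain ⟨k, hk⟩ := IsPGroup.iff_card.mp P.2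
    obtain ⟨j, -, hj⟩ := (Nat.dvd_prime_pow hp.out).mp (hk ▸ Subgroup.relIndex_dvd_card F (P : Subgroup G))
    refine dvd_trans ?_ (Subgroup.relIndex_dvd_index_of_le hlt.le)
    rw [hj]
    exact dvd_pow_self p (by rintro rfl; exact h1 (by rw [hj, pow_zero]))
  have hQnt : Nontrivial (G ⧸ F) := nontrivial_of_ne x₁ 1 (ne_one_of_orderOf_prime hp.out hx₁)
  have hK1 : K ≠ ⊥ := CfsgLib.Cores.fittingSubgroup_ne_bot
  obtain ⟨A, hAF, hFA, hAK, hAc⟩ := exists_lift_coprime F hFp K hKp
  have hAp : (Nat.card A).Coprime p := hAc ▸ hKp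
  have hA1 : A ≠ ⊥ := fun h => hK1 (by rw [← hAK, h, Subgroup.map_bot])
  have hAfpf : ∀ e ∈ A, e ≠ 1 → F ⊓ Subgroup.centralizer ({e} : Set G) = ⊥ := fun e he =>
    hfpf e (hAp.coprime_dvd_left (Subgroup.orderOf_dvd_natCard A he))
  have hAinj : ∀ u ∈ A, f u = 1 → u = 1 := fun u hu h =>
    (Subgroup.eq_bot_iff_forall _).mp hAF u ⟨hu, (QuotientGroup.eq_one_iff u).mp h⟩
  let g : A →* K := (f.comp A.subtype).codRestrict K fun u => hAK ▸ Subgroup.mem_map_of_mem f u.2
  have hg : Function.Bijective g := by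
    refine (Nat.bijective_iff_injective_and_card _).mpr ⟨?_, hAc⟩
    exact (injective_iff_map_eq_one g).mpr fun u hu =>
      Subtype.ext (hAinj u u.2 (congrArg Subtype.val hu))
  have hAnil : Group.IsNilpotent A := by
    have := hKnil
    exact Group.nilpotent_of_mulEquiv (MulEquiv.ofBijective g hg).symm
  -- `|A|` is odd
  have hAodd : Odd (Nat.card A) := by
    by_contra heven
    rw [Nat.not_odd_iff_even, even_iff_two_dvd] at heven
    have hp2 : p ≠ 2 := fun h => Nat.prime_two.ne_one (Nat.eq_one_of_dvd_coprimes hAp heven (h ▸ dvd_rfl))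
    obtain ⟨z, hz, hz2, hzc⟩ := exists_central_orderOf hAnil Nat.prime_two heven
    have huniq : ∀ w ∈ A, orderOf w = 2 → w = z := by
      intro w hw hw2
      have : Fact (Nat.Prime 2) := ⟨Nat.prime_two⟩
      let R := (pCore 2 A).map A.subtype
      have hR : IsPGroup 2 R := (CfsgLib.Cores.isPGroup_pCore 2 A).map _
      have hu := CfsgLib.Cores.uniqueOrderP_of_fpf hR hne
        (fun r _ => hFn r) (fun r hr => hAfpf r (Subgroup.map_subtype_le _ hr))
        ⟨z, mem_map_pCore_of_primePow hAnil hz (i := 1) (by rw [pow_one, hz2])⟩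
        ⟨w, mem_map_pCore_of_primePow hAnil hw (i := 1) (by rw [pow_one, hw2])⟩
        (by rw [Subgroup.orderOf_mk, hz2]) (by rw [Subgroup.orderOf_mk, hw2])
      obtain ⟨k, hk⟩ := Subgroup.mem_zpowers_iff.mp hu
      have hk' : z ^ k = w := congrArg Subtype.val hk
      rcases Int.even_or_odd k with ⟨j, hj⟩ | ⟨j, hj⟩
      · exfalso
        refine ne_one_of_orderOf_prime Nat.prime_two hw2 ?_
        rw [← hk', hj, ← two_mul, zpow_mul, zpow_two, ← pow_two, ← hz2, pow_orderOf_eq_one, one_zpow]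
      · rw [← hk', hj, zpow_add_one, zpow_mul, zpow_two, ← pow_two, ← hz2, pow_orderOf_eq_one,
          one_zpow, one_mul]
    have hzK : f z ∈ K := hAK ▸ Subgroup.mem_map_of_mem f hz
    have hz1 : f z ≠ 1 := fun h => ne_one_of_orderOf_prime Nat.prime_two hz2 (hAinj z hz h)
    have hfz : orderOf (f z) = 2 := by
      rcases (Nat.dvd_prime Nat.prime_two).mp (hz2 ▸ orderOf_map_dvd f z) with h | h
      · exact absurd (orderOf_eq_one_iff.mp h) hz1
      · exact h
    have hcen : x₁ * f z = f z * x₁ := by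
      have h1 : x₁ * f z * x₁⁻¹ ∈ K := (inferInstance : K.Normal).conj_mem _ hzK x₁
      rw [← hAK] at h1
      obtain ⟨w, hw, hwz⟩ := h1
      have hw2 : orderOf w = 2 := by
        have h2 : orderOf (g ⟨w, hw⟩) = orderOf (⟨w, hw⟩ : A) := orderOf_injective g hg.1 _
        rw [← Subgroup.orderOf_coe, Subgroup.orderOf_mk] at h2
        rw [← h2]
        show orderOf (f w) = 2
        rw [hwz, ← MulAut.conj_apply, MulEquiv.orderOf_eq, hfz]
      rw [huniq w hw hw2] at hwz
      exact mul_inv_eq_iff_eq_mul.mp hwz.symm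
    have hxK : x₁ ∈ K := hCK (Subgroup.mem_centralizer_iff.mpr fun c hc =>
      (commute_nilpotent_of_commute hQCN hKnil hzK hz1 (by rw [hx₁]; exact hKp.symm) hcen hc).symm)
    have hd := Subgroup.orderOf_dvd_natCard K hxK
    rw [hx₁] at hd
    exact hp.out.ne_one (Nat.eq_one_of_dvd_coprimes hKp hd dvd_rfl)
  have hAcyc : IsCyclic A := by
    rcases isCyclic_or_quaternion_nilpotent hne (fun r _ => hFn r) hAnil hAfpf with
      h | ⟨C, Q, hCQ, -, -, -, n, ⟨e⟩⟩
    · exact h
    · have h1 : Nat.card Q ∣ Nat.card A := Subgroup.card_dvd_of_le (hCQ ▸ le_sup_right)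
      rw [Nat.card_congr e.toEquiv, Nat.card_eq_fintype_card, QuaternionGroup.card] at h1
      exact absurd hAodd (Nat.not_odd_iff_even.mpr (even_iff_two_dvd.mpr
        ((Dvd.intro 2 rfl : (2 : ℕ) ∣ 2 * 2).mul_right (2 ^ n) |>.trans h1)))
  have hKcyc : IsCyclic K := (MulEquiv.ofBijective g hg).isCyclic.mp hAcyc
  have hKcomm : ∀ u ∈ K, ∀ v ∈ K, u * v = v * u := fun u hu v hv => by
    let _ := IsCyclic.commGroup (α := K)
    exact congrArg Subtype.val (mul_comm (⟨u, hu⟩ : K) ⟨v, hv⟩)
  -- the index of `K` is a power of `p`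
  have hindex : ∀ r : ℕ, r.Prime → r ∣ K.index → r = p := by
    intro r hr hri
    by_contra hrp
    have : Fact r.Prime := ⟨hr⟩
    by_cases hrK : r ∣ Nat.card K
    · have hr2 : r ≠ 2 := fun h => by
        rw [← hAc, h] at hrK
        exact absurd hAodd (Nat.not_odd_iff_even.mpr (even_iff_two_dvd.mpr hrK))
      let R : Sylow r G := default
      let R' : Sylow r (G ⧸ F) := R.mapSurjective hfs
      have hcycR : IsCyclic R' := by
        rcases CfsgLib.Cores.isCyclic_or_quaternion_of_fpf R.2 hne (fun y _ => hFn y)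
          (fun y hy => hfpf y (by
            obtain ⟨i, hi⟩ := IsPGroup.iff_orderOf.mp R.2 ⟨y, hy⟩
            rw [Subgroup.orderOf_mk] at hi
            rw [hi]
            exact ((Nat.coprime_primes hr hp.out).mpr hrp).pow_left i)) with h | ⟨h, -⟩
        · show IsCyclic (R.mapSurjective hfs : Subgroup (G ⧸ F))
          rw [Sylow.coe_mapSurjective]
          exact isCyclic_of_surjective (f.subgroupMap (R : Subgroup G)) (f.subgroupMap_surjective _)
        · exact absurd h hr2
      have hR'K : (R' : Subgroup (G ⧸ F)) ≤ K := by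
        refine le_trans ?_ hCK
        obtain ⟨k, hk, hkr, -⟩ := exists_central_orderOf hKnil hr hrK
        have hk1 := ne_one_of_orderOf_prime hr hkr
        have hRK : ∀ u ∈ K, ∀ i, orderOf u = r ^ i → u ∈ (R' : Subgroup (G ⧸ F)) := by
          intro u hu i hi
          have hn : ((pCore r K).map K.subtype).Normal := CfsgLib.Cores.normal_map_subtype K _
          exact CfsgLib.Cores.pCore_le_sylow R' (CfsgLib.Cores.le_pCore
            ((CfsgLib.Cores.isPGroup_pCore r K).map K.subtype) (mem_map_pCore_of_primePow hKnil hu hi))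
        let _ := IsCyclic.commGroup (α := (R' : Subgroup (G ⧸ F)))
        have hRc : ∀ u ∈ (R' : Subgroup (G ⧸ F)), ∀ v ∈ (R' : Subgroup (G ⧸ F)), u * v = v * u :=
          fun u hu v hv => congrArg Subtype.val (mul_comm (⟨u, hu⟩ : (R' : Subgroup (G ⧸ F))) ⟨v, hv⟩)
        intro y hy
        have hyk : y * k = k * y := hRc y hy k (hRK k hk 1 (by rw [pow_one, hkr]))
        refine Subgroup.mem_centralizer_iff.mpr ?_
        suffices h : K ≤ Subgroup.centralizer ({y} : Set (G ⧸ F)) from fun c hc =>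
          Subgroup.mem_centralizer_singleton_iff.mp (h hc)
        refine le_of_forall_primePow fun c hc s i hs hci => Subgroup.mem_centralizer_singleton_iff.mpr ?_
        by_cases hsr : s = r
        · exact hRc c (hRK c hc i (hsr ▸ hci)) y hy
        · refine commute_of_mem_nilpotent (hQCN k hk1)
            (Subgroup.mem_centralizer_singleton_iff.mpr (hKcomm c hc k hk))
            (Subgroup.mem_centralizer_singleton_iff.mpr hyk) ?_
          obtain ⟨j, hj⟩ := IsPGroup.iff_orderOf.mp R'.2 ⟨y, hy⟩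
          rw [Subgroup.orderOf_mk] at hj
          rw [hci, hj]
          exact ((Nat.coprime_primes hs hr).mpr hsr).pow _ _
      exact R'.not_dvd_index (hri.trans (Subgroup.index_dvd_of_le hR'K))
    · obtain ⟨y, hy⟩ := exists_prime_orderOf_dvd_card' (G := G ⧸ F) r
        (hri.trans (Subgroup.index_dvd_card K))
      have hyK : y ∉ K := fun h => hrK (hy ▸ Subgroup.orderOf_dvd_natCard K h)
      have hfix : ∀ c ∈ K, y * c = c * y → c = 1 := by
        intro c hc hcy
        by_contra hc1
        exact hyK (hCK (Subgroup.mem_centralizer_iff.mpr fun d hd =>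
          (commute_nilpotent_of_commute hQCN hKnil hc hc1
            (by rw [hy]; exact hr.coprime_iff_not_dvd.mpr hrK) hcy hd).symm))
      let M := K ⊔ Subgroup.zpowers y
      have hMc : (Nat.card M).Coprime p :=
        Nat.Coprime.coprime_dvd_left (by
            rw [show M = Subgroup.zpowers y ⊔ K from sup_comm _ _]
            exact CfsgLib.Cores.card_sup_dvd (Subgroup.zpowers y) K)
          (Nat.Coprime.mul_left (by rw [Nat.card_zpowers, hy]; exact (Nat.coprime_primes hr hp.out).mpr hrp) hKp)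
      obtain ⟨B, hBF, -, hBM, -⟩ := exists_lift_coprime F hFp M hMc
      have hBinj : ∀ u ∈ B, f u = 1 → u = 1 := fun u hu h =>
        (Subgroup.eq_bot_iff_forall _).mp hBF u ⟨hu, (QuotientGroup.eq_one_iff u).mp h⟩
      obtain ⟨y₀, hy₀, hy₀y⟩ : y ∈ B.map f := hBM ▸ Subgroup.mem_sup_right (Subgroup.mem_zpowers y)
      have hord : ∀ u ∈ B, u ≠ 1 → (orderOf u).Coprime p := by
        intro u hu _
        let gB : B →* G ⧸ F := f.comp B.subtype
        have hgB : Function.Injective gB := (injective_iff_map_eq_one gB).mpr fun v hv =>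
          Subtype.ext (hBinj v v.2 hv)
        have h1 : orderOf u = orderOf (f u) := by
          rw [← Subgroup.orderOf_mk u hu, ← orderOf_injective gB hgB]
          rfl
        rw [h1]
        exact hMc.coprime_dvd_left (Subgroup.orderOf_dvd_natCard M (hBM ▸ Subgroup.mem_map_of_mem f hu))
      let Kb := B ⊓ K.comap f
      have hKb1 : Kb ≠ ⊥ := by
        obtain ⟨c, hc, hc1⟩ := (Subgroup.bot_or_exists_ne_one K).resolve_left hK1
        obtain ⟨c₀, hc₀, hc₀c⟩ : c ∈ B.map f := hBM ▸ Subgroup.mem_sup_left hc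
        intro h
        have := (Subgroup.eq_bot_iff_forall _).mp h c₀ ⟨hc₀, show f c₀ ∈ K from hc₀c ▸ hc⟩
        exact hc1 (by rw [← hc₀c, this, map_one])
      have hKbc : IsMulCommutative Kb := IsMulCommutative.of_setLike_mul_comm fun u hu v hv => by
        have h1 : f (u * v * u⁻¹ * v⁻¹) = 1 := by
          rw [map_mul, map_mul, map_mul, map_inv, map_inv, hKcomm _ hu.2 _ hv.2]
          group
        have h2 := hBinj _ (mul_mem (mul_mem (mul_mem hu.1 hv.1) (inv_mem hu.1)) (inv_mem hv.1)) h1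
        exact mul_inv_eq_iff_eq_mul.mp (mul_inv_eq_one.mp h2)
      have hD1 : Subgroup.zpowers y₀ ≠ ⊥ := by
        rw [Ne, Subgroup.zpowers_eq_bot]
        intro h
        exact ne_one_of_orderOf_prime hr hy (by rw [← hy₀y, h, map_one])
      have : Group.IsSolvable (Subgroup.zpowers y₀) :=
        Group.isSolvable_of_comm fun u v => (IsMulCommutative.is_comm (M := Subgroup.zpowers y₀)).comm u v
      refine hne (CfsgLib.Cores.eq_bot_of_frobenius_fpf (K := Kb) (D := Subgroup.zpowers y₀)
        (fun u _ => hFn u) (fun u _ => hFn u) ?_ hKb1 hD1 ?_ ?_)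
      · exact (Subgroup.zpowers_le.mpr hy₀).trans (le_trans (le_inf Subgroup.le_normalizer
          ((le_top : B ≤ ⊤).trans (Subgroup.normalizer_eq_top_iff.mpr
            ((inferInstance : K.Normal).comap f)).ge))
          Subgroup.inf_normalizer_le_normalizer_inf)
      · intro d hd hd1
        rw [Subgroup.eq_bot_iff_forall]
        rintro u ⟨hu, hud⟩
        obtain ⟨k, hk⟩ := Subgroup.mem_zpowers_iff.mp hd
        have hcomm : (f y₀) ^ k * f u = f u * (f y₀) ^ k := by
          rw [← map_zpow, hk, ← map_mul, ← map_mul, Subgroup.mem_centralizer_singleton_iff.mp hud]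
        rw [hy₀y] at hcomm
        refine hBinj u hu.1 (hfix _ hu.2 ?_)
        -- `y` is a power of `y ^ k`
        have hyk : y ^ k ≠ 1 := fun h => hd1 (hBinj d (Subgroup.zpowers_le.mpr hy₀ hd)
          (by rw [← hk, map_zpow, hy₀y, h]))
        have hgen : y ∈ Subgroup.zpowers (y ^ k) := by
          have h1 : Subgroup.zpowers (y ^ k) = Subgroup.zpowers y := Subgroup.eq_of_le_of_card_ge
            (Subgroup.zpowers_le.mpr (Subgroup.zpow_mem _ (Subgroup.mem_zpowers y) k)) (by
              rw [Nat.card_zpowers, Nat.card_zpowers, hy]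
              rcases (Nat.dvd_prime hr).mp (hy ▸ orderOf_dvd_of_mem_zpowers
                (Subgroup.zpow_mem _ (Subgroup.mem_zpowers y) k)) with h | h
              · exact absurd (orderOf_eq_one_iff.mp h) hyk
              · exact h.ge)
          exact h1 ▸ Subgroup.mem_zpowers y
        obtain ⟨j, hj⟩ := Subgroup.mem_zpowers_iff.mp hgen
        rw [← hj]
        exact ((show Commute (y ^ k) (f u) from hcomm).zpow_left j).eq
      · intro u hu hu1
        have huB : u ∈ B := (sup_le inf_le_left (Subgroup.zpowers_le.mpr hy₀) : Kb ⊔ _ ≤ B) hu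
        exact hfpf u (hord u huB hu1) hu1
  obtain ⟨n, hn⟩ : ∃ n, K.index = p ^ n :=
    ⟨_, Nat.eq_prime_pow_of_unique_prime_dvd Subgroup.index_ne_zero_of_finite fun {d} hd hdd => hindex d hd hdd⟩
  have hKA : pCore p G ⊔ A = K.comap f := hFA
  refine ⟨hne, A, hA1, hAcyc, hAodd, hAp, ?_, ?_, ⟨n, ?_⟩, hAfpf, ?_⟩
  · rw [hKA]; exact (inferInstance : K.Normal).comap f
  · rw [hKA]
    intro h
    have h1 : K = ⊤ := by
      rw [← Subgroup.map_comap_eq_self_of_surjective hfs K, h, Subgroup.map_top_of_surjective f hfs]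
    have hd := Subgroup.orderOf_dvd_natCard K (show x₁ ∈ K by rw [h1]; exact Subgroup.mem_top x₁)
    rw [hx₁] at hd
    exact hp.out.ne_one (Nat.eq_one_of_dvd_coprimes hKp hd dvd_rfl)
  · rw [hKA, Subgroup.index_comap_of_surjective K hfs, hn]
  · intro x hx u hu hu1 hcomm
    apply hx
    rw [hKA]
    show f x ∈ K
    have hc : f x * f u = f u * f x := by
      have h1 : f (x * u * x⁻¹ * u⁻¹) = 1 := (QuotientGroup.eq_one_iff _).mpr hcomm
      rw [map_mul, map_mul, map_mul, map_inv, map_inv, mul_inv_eq_one, mul_inv_eq_iff_eq_mul] at h1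
      exact h1
    have huK : f u ∈ K := hAK ▸ Subgroup.mem_map_of_mem f hu
    have hu1' : f u ≠ 1 := fun h => hu1 (hAinj u hu h)
    obtain ⟨s, t, hst, ⟨k, hk⟩, ht⟩ := CfsgLib.NormalPComplement.exists_pParts (p := p)
      (isOfFinOrder_of_finite (f x))
    rw [← hst]
    refine mul_mem ?_ ?_
    · refine hCK (Subgroup.mem_centralizer_iff.mpr fun c hc' => ?_)
      exact (commute_nilpotent_of_commute hQCN hKnil huK hu1'
        (Nat.Coprime.coprime_dvd_left hk (hKp.symm.pow_left k))
        ((show Commute (f x) (f u) from hc).pow_left s).eq hc').symm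
    · -- a `p'`-element lies in `K`
      have h1 := (QuotientGroup.eq_one_iff (N := K) ((f x) ^ t)).mp
        (orderOf_eq_one_iff.mp (Nat.eq_one_of_dvd_coprimes (ht.pow_right n)
          (orderOf_map_dvd (QuotientGroup.mk' K) ((f x) ^ t))
          (hn ▸ (orderOf_dvd_natCard _).trans (Subgroup.index_eq_card K).symm.dvd)))
      exact h1

/-- Solvable CN groups: a nontrivial normal Sylow subgroup, or three-step. -/
theorem normal_sylow_or_threeStep [Group.IsSolvable G] [Nontrivial G] (hCN : IsCNGroup G) :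
    (∃ (p : ℕ) (_ : Fact p.Prime) (P : Sylow p G), (P : Subgroup G) ≠ ⊥ ∧ (P : Subgroup G).Normal) ∨
      ∃ p : ℕ, p.Prime ∧ fittingSubgroup G = pCore p G ∧ IsThreeStepGroup p G := by
  by_cases h : ∃ (p : ℕ) (_ : Fact p.Prime) (P : Sylow p G), (P : Subgroup G) ≠ ⊥ ∧ (P : Subgroup G).Normal
  · exact Or.inl h
  · push Not at h
    obtain ⟨p, hp, hFit, hne⟩ := fittingSubgroup_eq_pCore_of_cn hCN fun q hq Q => h q hq Q
    refine Or.inr ⟨p, hp.out, hFit, isThreeStepGroup_of_cn hCN hFit hne fun P => h p hp P fun hb => hne ?_⟩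
    exact le_bot_iff.mp ((CfsgLib.Cores.pCore_le_sylow P).trans hb.le)

end CfsgLib.BGTypes
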