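import Cfsg.Agent.Lib.BGUniqueness.FittingOp
import Cfsg.Agent.Lib.BGTypes.CNBasic
import Cfsg.Agent.Lib.CoprimeAction.Sylow

/-!
An automorphism of prime order acting without fixed points on the Fitting subgroup (BG 3.8): the
reduction to the action of a `q`-group on a `p`-group.
-/

set_option autoImplicit false
set_option linter.style.haveILetI false

namespace CfsgLib.BGTypes

open Cfsg CfsgLib.BGUniqueness

universe u

variable {G : Type u} [Group G] [Finite G]

/-- If `A` centralizes `F(K)` and acts coprimely on the solvable normal subgroup `K`, it centralizes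
`K`. -/
theorem le_centralizer_of_le_centralizer_fittingOf {K A : Subgroup G} [K.Normal]
    (hK : Group.IsSolvable K) (hcop : (Nat.card A).Coprime (Nat.card K))
    (hF : A ≤ Subgroup.centralizer (fittingOf K : Set G)) : A ≤ Subgroup.centralizer (K : Set G) := by
  have hKn : A ≤ Subgroup.normalizer (K : Set G) := by
    rw [Subgroup.normalizer_eq_top_iff.mpr inferInstance]; exact le_top
  have hF' : fittingOf K ≤ Subgroup.centralizer (A : Set G) := Subgroup.le_centralizer_iff.mp hF
  have h1 : ⁅⁅fittingOf K, K⁆, A⁆ = ⊥ := by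
    rw [Subgroup.commutator_eq_bot_iff_le_centralizer]
    refine le_trans ?_ hF'
    exact CoprimeAction.commutator_le_left (le_normalizer_fittingOf K)
  have h2 : ⁅⁅A, fittingOf K⁆, K⁆ = ⊥ := by
    rw [show ⁅A, fittingOf K⁆ = ⊥ from Subgroup.commutator_eq_bot_iff_le_centralizer.mpr hF]
    exact Subgroup.commutator_bot_left K
  have h3 : ⁅⁅K, A⁆, fittingOf K⁆ = ⊥ := Subgroup.commutator_commutator_eq_bot_of_rotate h2 h1
  have h4 : ⁅K, A⁆ ≤ fittingOf K :=
    (le_inf (CoprimeAction.commutator_le_left hKn)
      (Subgroup.commutator_eq_bot_iff_le_centralizer.mp h3)).trans (centralizer_fittingOf_le hK)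
  rw [Subgroup.le_centralizer_iff, ← Subgroup.commutator_eq_bot_iff_le_centralizer,
    ← CoprimeAction.commutator_commutator_eq hKn hcop (Or.inr hK),
    Subgroup.commutator_eq_bot_iff_le_centralizer]
  exact h4.trans hF'

/-- If `A` centralizes a Sylow `q`-subgroup of `K` for every `q ≠ p` then `[K, A] ≤ O_p(K)`. -/
theorem commutator_le_opIn {K A : Subgroup G} [K.Normal] (hK : Group.IsSolvable K)
    (hcop : (Nat.card A).Coprime (Nat.card K)) (p : ℕ) [hp : Fact p.Prime]
    (hsyl : ∀ q : ℕ, q.Prime → q ≠ p → ∃ Q : Subgroup G, Q ≤ K ∧ IsPGroup q Q ∧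
      ¬ q ∣ Q.relIndex K ∧ Q ≤ Subgroup.centralizer (A : Set G)) :
    ⁅K, A⁆ ≤ opIn p K := by
  set E := opIn p K with hE
  haveI hEn : E.Normal := by
    rw [← Subgroup.normalizer_eq_top_iff, ← top_le_iff]
    rw [← (Subgroup.normalizer_eq_top_iff.mpr (inferInstance : K.Normal))]
    exact normalizer_le_normalizer_opIn p K
  set f := QuotientGroup.mk' E with hf
  have hsurj : Function.Surjective f := QuotientGroup.mk'_surjective E
  have hEK : E ≤ K := opIn_le p K
  haveI hKn : (K.map f).Normal := (inferInstance : K.Normal).map f hsurj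
  have hcomap : (K.map f).comap f = K := by
    rw [Subgroup.comap_map_eq, hf, QuotientGroup.ker_mk', sup_eq_left.mpr hEK]
  have hbot : opIn p (K.map f) = ⊥ := by
    rw [← Subgroup.map_comap_eq_self_of_surjective hsurj (opIn p (K.map f)),
      Subgroup.map_eq_bot_iff, hf, QuotientGroup.ker_mk']
    refine le_opIn ?_ ?_ ?_
    · exact (Subgroup.comap_mono (opIn_le p (K.map f))).trans hcomap.le
    · intro k hk
      refine CoprimeAction.mem_normalizer_of_conj_mem fun y hy => ?_
      rw [Subgroup.mem_comap] at hy ⊢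
      rw [map_mul, map_mul, map_inv]
      exact CoprimeAction.conj_mem (le_normalizer_opIn p (K.map f) ⟨k, hk, rfl⟩) hy
    · obtain ⟨a, ha⟩ := IsPGroup.iff_card.mp (isPGroup_opIn p (K.map f))
      obtain ⟨b, hb⟩ := IsPGroup.iff_card.mp (isPGroup_opIn p K)
      refine IsPGroup.of_card (n := b + a) ?_
      rw [Cores.card_comap_mk', ha, hb, pow_add]
  have hKs : Group.IsSolvable (K.map f) :=
    haveI := hK
    Group.isSolvable_of_surjective (MonoidHom.subgroupMap_surjective f K)
  have hcent : A.map f ≤ Subgroup.centralizer (K.map f : Set (G ⧸ E)) := by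
    refine le_centralizer_of_le_centralizer_fittingOf hKs ?_ ?_
    · exact ((hcop.coprime_dvd_left (Subgroup.card_map_dvd A f)).coprime_dvd_right
        (Subgroup.card_map_dvd K f))
    · rw [Subgroup.le_centralizer_iff]
      refine fittingOf_le_of_opIn_le fun t ht _ => ?_
      haveI := Fact.mk ht
      rcases eq_or_ne t p with rfl | htp
      · rw [hbot]; exact bot_le
      obtain ⟨Q, hQK, hQ, hQi, hQA⟩ := hsyl t ht htp
      have hQ' : IsPGroup t ((Q.map f).subgroupOf (K.map f)) :=
        (hQ.map f).of_equiv (Subgroup.subgroupOfEquivOfLe (Subgroup.map_mono hQK)).symm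
      have hi : ¬ t ∣ ((Q.map f).subgroupOf (K.map f)).index := by
        intro hd
        apply hQi
        have h1 : (Q.map f).relIndex (K.map f) = (Q ⊔ E).relIndex K := by
          rw [Subgroup.relIndex_map_map, hf, QuotientGroup.ker_mk', sup_eq_left.mpr hEK]
        have hd' : t ∣ (Q.map f).relIndex (K.map f) := hd
        rw [h1] at hd'
        exact hd'.trans (Subgroup.relIndex_dvd_of_le_left K le_sup_left)
      have hle : pCore t (K.map f) ≤ (Q.map f).subgroupOf (K.map f) := by
        have := Cores.pCore_le_sylow (hQ'.toSylow hi)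
        rwa [IsPGroup.toSylow_coe] at this
      calc opIn t (K.map f) ≤ ((Q.map f).subgroupOf (K.map f)).map (K.map f).subtype :=
            Subgroup.map_mono hle
        _ = Q.map f := Subgroup.map_subgroupOf_eq_of_le (Subgroup.map_mono hQK)
        _ ≤ Subgroup.centralizer (A.map f : Set (G ⧸ E)) := by
            rintro _ ⟨y, hy, rfl⟩
            refine Subgroup.mem_centralizer_iff.mpr ?_
            rintro _ ⟨a, ha, rfl⟩
            rw [← map_mul, ← map_mul, Subgroup.mem_centralizer_iff.mp (hQA hy) a ha]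
  have h1 : ⁅K, A⁆.map f = ⊥ := by
    rw [Subgroup.map_commutator, Subgroup.commutator_eq_bot_iff_le_centralizer,
      Subgroup.le_centralizer_iff]
    exact hcent
  rwa [Subgroup.map_eq_bot_iff, hf, QuotientGroup.ker_mk'] at h1

/-- A solvable group in which `q`-elements centralize `O_t` for `t ≠ q` is nilpotent. -/
theorem isNilpotent_of_primePow_centralize_pCore {L : Type u} [Group L] [Finite L]
    [Group.IsSolvable L]
    (h : ∀ q t : ℕ, q.Prime → t.Prime → t ≠ q → ∀ x : L, (∃ i, orderOf x = q ^ i) →
      x ∈ Subgroup.centralizer (pCore t L : Set L)) : Group.IsNilpotent L := by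
  set F := fittingSubgroup L with hF
  suffices hFtop : F = ⊤ by
    have h1 : Group.IsNilpotent F := Cores.isNilpotent_fittingSubgroup
    rw [hFtop] at h1
    exact Group.nilpotent_of_mulEquiv (G := (⊤ : Subgroup L)) Subgroup.topEquiv
  by_contra hne
  haveI : Nontrivial (L ⧸ F) := QuotientGroup.nontrivial_iff.mpr hne
  haveI : Group.IsSolvable (L ⧸ F) :=
    Group.isSolvable_of_surjective (QuotientGroup.mk'_surjective F)
  have hFbar : fittingSubgroup (L ⧸ F) ≠ ⊥ := fun e => by
    have h1 := Cores.centralizer_fittingSubgroup_le (G := L ⧸ F)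
    rw [e] at h1
    obtain ⟨y, hy⟩ := exists_ne (1 : L ⧸ F)
    exact hy (Subgroup.mem_bot.mp (h1 (Subgroup.mem_centralizer_iff.mpr fun b hb => by
      rw [SetLike.mem_coe, Subgroup.mem_bot] at hb; subst hb; simp)))
  obtain ⟨q, hq, hqF⟩ : ∃ q : ℕ, q.Prime ∧ pCore q (L ⧸ F) ≠ ⊥ := by
    by_contra hc
    push Not at hc
    apply hFbar
    rw [Cores.fittingSubgroup_eq_iSup_pCore, iSup_eq_bot]
    exact fun p => hc p (Nat.prime_of_mem_primeFactors p.2)
  haveI := Fact.mk hq
  set A := (pCore q (L ⧸ F)).comap (QuotientGroup.mk' F) with hA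
  apply hqF
  rw [← Subgroup.map_comap_eq_self_of_surjective (QuotientGroup.mk'_surjective F)
    (pCore q (L ⧸ F)), ← hA, Subgroup.map_eq_bot_iff, QuotientGroup.ker_mk']
  suffices hAn : Group.IsNilpotent A from
    haveI : A.Normal := (inferInstance : (pCore q (L ⧸ F)).Normal).comap _
    haveI := hAn
    Cores.le_fittingSubgroup hAn
  refine isNilpotent_of_commute_primePow fun s t hs ht hst x y hx hy => Subtype.ext ?_
  -- elements of prime power order other than `q`-elements lie in `F(L)`
  have hmem : ∀ (r i : ℕ), r.Prime → r ≠ q → ∀ z : A, orderOf z = r ^ i → (z : L) ∈ F := by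
    intro r i hr hrq z hz
    obtain ⟨k, hk⟩ := Cores.isPGroup_pCore q (L ⧸ F) ⟨_, z.2⟩
    rw [← QuotientGroup.eq_one_iff, ← orderOf_eq_one_iff, ← Nat.dvd_one]
    have hcop : Nat.Coprime (r ^ i) (q ^ k) :=
      (((Nat.coprime_primes hr hq).mpr hrq).pow_left i).pow_right k
    refine hcop ▸ Nat.dvd_gcd ?_ ?_
    · rw [← hz]
      exact (orderOf_map_dvd (QuotientGroup.mk' F) (z : L)).trans (Subgroup.orderOf_coe z).dvd
    · exact orderOf_dvd_of_pow_eq_one (by simpa using congrArg Subtype.val hk)
  have hcore : ∀ (r i : ℕ), r.Prime → r ≠ q → ∀ z : A, orderOf z = r ^ i →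
      (z : L) ∈ pCore r L := by
    intro r i hr hrq z hz
    haveI := Fact.mk hr
    refine Cores.le_pCore_of_subnormal (P := Subgroup.zpowers (z : L)) ?_ ?_
      (Subgroup.mem_zpowers _)
    · exact Subnormal.isSubnormal_of_le_normal (Subgroup.zpowers_le.mpr (hmem r i hr hrq z hz))
        (Subnormal.isSubnormal_subgroupOf_of_isNilpotent Cores.isNilpotent_fittingSubgroup)
    · exact IsPGroup.of_card (n := i) (by rw [Nat.card_zpowers, Subgroup.orderOf_coe, hz])
  obtain ⟨i, hi⟩ := hx
  obtain ⟨j, hj⟩ := hy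
  rcases eq_or_ne s q with rfl | hsq
  · exact (Subgroup.mem_centralizer_iff.mp (h s t hs ht hst.symm (x : L)
      ⟨i, by rw [Subgroup.orderOf_coe, hi]⟩) _ (hcore t j ht hst.symm y hj)).symm
  · exact Subgroup.mem_centralizer_iff.mp (h t s ht hs hst (y : L)
      ⟨j, by rw [Subgroup.orderOf_coe, hj]⟩) _ (hcore s i hs hsq x hi)

/-- BG 3.8, given BG 3.4 for a `q`-group acting on a `p`-group. -/
theorem commutator_zpowers_le_fittingOf {K : Subgroup G} [K.Normal] (hK : Group.IsSolvable K)
    {x : G} (hx : (orderOf x).Prime) (hcop : (Nat.card K).Coprime (orderOf x))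
    (h34 : ∀ (p q : ℕ) [Fact p.Prime] [Fact q.Prime] (P Q : Subgroup G), IsPGroup p P →
      IsPGroup q Q → p ≠ q → Q ≤ K → P ≤ K → x ∈ Subgroup.normalizer (P : Set G) →
      x ∈ Subgroup.normalizer (Q : Set G) → Q ≤ Subgroup.normalizer (P : Set G) →
      P ⊓ Subgroup.centralizer ({x} : Set G) = ⊥ →
      ⁅Q, Subgroup.zpowers x⁆ ≤ Subgroup.centralizer (P : Set G))
    (hF : fittingOf K ⊓ Subgroup.centralizer ({x} : Set G) = ⊥) :
    ⁅K, Subgroup.zpowers x⁆ ≤ fittingOf K := by
  set A := Subgroup.zpowers x with hA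
  have hcopA : (Nat.card A).Coprime (Nat.card K) := by
    rw [hA, Nat.card_zpowers]; exact hcop.symm
  have hAK : A ≤ Subgroup.normalizer (K : Set G) := by
    rw [Subgroup.normalizer_eq_top_iff.mpr inferInstance]; exact le_top
  set L := ⁅K, A⁆ with hL
  have hLK : L ≤ K := CoprimeAction.commutator_le_left hAK
  have hKL : K ≤ Subgroup.normalizer (L : Set G) :=
    le_sup_left.trans (CoprimeAction.sup_le_normalizer_commutator A K)
  -- every `q`-element of `L` centralises `O_p(K)`
  have key : ∀ p : ℕ, p.Prime → ∀ y ∈ L, (∃ q i : ℕ, q.Prime ∧ q ≠ p ∧ orderOf y = q ^ i) →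
      y ∈ Subgroup.centralizer (opIn p K : Set G) := by
    intro p hp y hy ⟨q, i, hq, hqp, hyq⟩
    haveI := Fact.mk hp
    set P := opIn p K with hP
    haveI hPn : P.Normal := by
      rw [← Subgroup.normalizer_eq_top_iff, ← top_le_iff]
      rw [← (Subgroup.normalizer_eq_top_iff.mpr (inferInstance : K.Normal))]
      exact normalizer_le_normalizer_opIn p K
    set N := K ⊓ Subgroup.centralizer (P : Set G) with hN
    haveI : N.Normal := Subgroup.normal_inf_normal K _
    set f := QuotientGroup.mk' N with hf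
    have hsurj : Function.Surjective f := QuotientGroup.mk'_surjective N
    haveI hKn : (K.map f).Normal := (inferInstance : K.Normal).map f hsurj
    have hKs : Group.IsSolvable (K.map f) :=
      haveI := hK
      Group.isSolvable_of_surjective (MonoidHom.subgroupMap_surjective f K)
    have hle := commutator_le_opIn (A := A.map f) hKs
      ((hcopA.coprime_dvd_left (Subgroup.card_map_dvd A f)).coprime_dvd_right
        (Subgroup.card_map_dvd K f)) p fun t ht htp => by
      haveI := Fact.mk ht
      obtain ⟨S, hS⟩ := CoprimeAction.exists_invariant_sylow hAK hcopA (Or.inr hK) t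
      refine ⟨((S : Subgroup K).map K.subtype).map f, Subgroup.map_mono (Subgroup.map_subtype_le _),
        (S.isPGroup'.map _).map f, ?_, ?_⟩
      · intro hd
        refine S.not_dvd_index ?_
        rw [Subgroup.relIndex_map_map] at hd
        have h2 := hd.trans (Subgroup.relIndex_dvd_of_le_left _
          (le_sup_left : (S : Subgroup K).map K.subtype ≤ _))
        rwa [hf, QuotientGroup.ker_mk', sup_eq_left.mpr (inf_le_left : N ≤ K), Subgroup.relIndex,
          Subgroup.subgroupOf,
          Subgroup.comap_map_eq_self_of_injective K.subtype_injective] at h2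
      · have h1 : ⁅(S : Subgroup K).map K.subtype, A⁆ ≤ N := by
          refine le_inf ((Subgroup.commutator_mono (Subgroup.map_subtype_le _) le_rfl).trans hLK) ?_
          refine h34 p t P ((S : Subgroup K).map K.subtype) (isPGroup_opIn p K) (S.isPGroup'.map _)
            htp.symm (Subgroup.map_subtype_le _) (opIn_le p K) ?_ (hS (Subgroup.mem_zpowers x)) ?_ ?_
          · rw [Subgroup.normalizer_eq_top_iff.mpr hPn]; trivial
          · rw [Subgroup.normalizer_eq_top_iff.mpr hPn]; exact le_top
          · rw [← le_bot_iff, ← hF]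
            exact inf_le_inf_right _ (opIn_le_fittingOf p K)
        rw [← Subgroup.commutator_eq_bot_iff_le_centralizer, ← Subgroup.map_commutator,
          Subgroup.map_eq_bot_iff, hf, QuotientGroup.ker_mk']
        exact h1
    have hfy : f y ∈ opIn p (K.map f) := by
      refine hle ?_
      rw [← Subgroup.map_commutator]
      exact Subgroup.mem_map_of_mem f hy
    obtain ⟨k, hk⟩ := isPGroup_opIn p (K.map f) ⟨_, hfy⟩
    have h1 : f y = 1 := by
      rw [← orderOf_eq_one_iff, ← Nat.dvd_one]
      have hcop : Nat.Coprime (q ^ i) (p ^ k) :=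
        (((Nat.coprime_primes hq hp).mpr hqp).pow_left i).pow_right k
      refine hcop ▸ Nat.dvd_gcd ?_ ?_
      · rw [← hyq]; exact orderOf_map_dvd f y
      · exact orderOf_dvd_of_pow_eq_one (by simpa using congrArg Subtype.val hk)
    exact ((QuotientGroup.eq_one_iff y).mp h1).2
  haveI hLs : Group.IsSolvable L := CfsgLib.BGUniqueness.isSolvable_of_le hLK hK
  have hnil : Group.IsNilpotent L := by
    refine isNilpotent_of_primePow_centralize_pCore fun q t hq ht htq y ⟨i, hi⟩ => ?_
    haveI := Fact.mk ht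
    have hsub : opIn t L ≤ opIn t K := le_opIn ((opIn_le t L).trans hLK)
      (hKL.trans (normalizer_le_normalizer_opIn t L)) (isPGroup_opIn t L)
    have hc := key t ht (y : G) y.2 ⟨q, i, hq, htq.symm, by rw [Subgroup.orderOf_coe, hi]⟩
    exact Subgroup.mem_centralizer_iff.mpr fun b hb =>
      Subtype.ext (Subgroup.mem_centralizer_iff.mp hc (b : G) (hsub ⟨b, hb, rfl⟩))
  exact le_fittingOf hLK hKL hnil

end CfsgLib.BGTypes
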